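import Cfsg.Agent.KB.Lin
import Cfsg.Agent.S4958
import Cfsg.Agent.PLocal.Basic
import Cfsg.Agent.Solv.MinNormal

/-! Class numbers of solvable groups with trivial `p'`-core. -/

set_option autoImplicit false
set_option linter.style.haveILetI false

namespace Cfsg.Agent.KB

open Subgroup Cfsg.Agent.CH Cfsg.Agent.CH.Kc Cfsg.Agent.CH.Reg Cfsg.Agent.PLocal
open scoped IsMulCommutative commutatorElement

/-- The weight `(3p)^d`. -/
noncomputable def gw (p : ℕ) (X : Type) [Group X] : ℕ := (3 * p) ^ (Nat.card X).factorization p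

theorem gw_mul (p : ℕ) {X : Type} [Group X] [Finite X] (N : Subgroup X) [N.Normal] :
    gw p N * gw p (X ⧸ N) = gw p X := by
  rw [gw, gw, gw, ← pow_add, card_eq_card_quotient_mul_card_subgroup N,
    Nat.factorization_mul Nat.card_pos.ne' Nat.card_pos.ne', Finsupp.add_apply, add_comm]

/-- The inductive statement. -/
def PP (p n : ℕ) : Prop :=
  ∀ (X : Type) [Group X] [Finite X] [Group.IsSolvable X] [Nontrivial X], Nat.card X < n →
    pPrimeCore p X = ⊥ → 3 * Nat.card (ConjClasses X) ≤ gw p X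

variable {p : ℕ} [hp : Fact p.Prime]

omit hp in
theorem core_sub {X : Type} [Group X] [Finite X] (h : pPrimeCore p X = ⊥) (N : Subgroup X)
    [N.Normal] : pPrimeCore p N = ⊥ :=
  ppCoreOf_eq_bot_iff.1 (le_bot_iff.1 (h ▸ ppCoreOf_le_pPrimeCore_of_normal N))

omit hp in
theorem core_quot {X : Type} [Group X] [Finite X] (V : Subgroup X) [V.Normal] :
    pPrimeCore p (X ⧸ (pPrimeCore p (X ⧸ V)).comap (QuotientGroup.mk' V)) = ⊥ := by
  set N := (pPrimeCore p (X ⧸ V)).comap (QuotientGroup.mk' V)
  have hs : Function.Surjective ((QuotientGroup.mk' (pPrimeCore p (X ⧸ V))).comp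
      (QuotientGroup.mk' V)) :=
    (QuotientGroup.mk'_surjective _).comp (QuotientGroup.mk'_surjective V)
  have hk : N = ((QuotientGroup.mk' (pPrimeCore p (X ⧸ V))).comp (QuotientGroup.mk' V)).ker := by
    rw [← MonoidHom.comap_ker, QuotientGroup.ker_mk']
  let e := (QuotientGroup.quotientMulEquivOfEq hk).trans
    (QuotientGroup.quotientKerEquivOfSurjective _ hs)
  rw [← pPrimeCore_map_equiv e.symm, pPrimeCore_quotient_pPrimeCore, Subgroup.map_bot]

theorem chain {n : ℕ} (hn : PP p n) (t : ℕ) : ∀ (X : Type) [Group X] [Finite X]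
    [Group.IsSolvable X], Nat.card X < n → pPrimeCore p X = ⊥ → ∀ c : ℕ → Subgroup X,
    (∀ i, (c i).Normal) → (∀ i, IsPGroup p (c i)) → (∀ i < t, c i < c (i + 1)) →
    3 ^ t * Nat.card (ConjClasses X) ≤ gw p X := by
  induction t with
  | zero =>
    intro X _ _ _ hc hO _ _ _ _
    rcases subsingleton_or_nontrivial X with h | h
    · haveI : Subsingleton (ConjClasses X) := ConjClasses.mk_surjective.subsingleton
      rw [pow_zero, one_mul]
      exact Finite.card_le_one_iff_subsingleton.2 this |>.trans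
        (Nat.pow_pos (Nat.mul_pos three_pos hp.out.pos))
    · have := hn X hc hO
      omega
  | succ t ih =>
    intro X _ _ _ hc hO c h1 h2 h3
    set N := (pPrimeCore p (X ⧸ c 1)).comap (QuotientGroup.mk' (c 1)) with hN
    have hle : c 1 ≤ N := fun x hx => by
      rw [hN, mem_comap, QuotientGroup.mk'_apply, (QuotientGroup.eq_one_iff x).2 hx]
      exact one_mem _
    have hmono : ∀ i, i ≤ t → c 1 ≤ c (i + 1) := fun i hi => by
      induction i with
      | zero => exact le_rfl
      | succ i ih => exact (ih (by omega)).trans (h3 _ (by omega)).le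
    haveI : Nontrivial N := (nontrivial_iff_ne_bot N).2 fun h =>
      (h3 0 (by omega)).ne_bot (le_bot_iff.1 (h ▸ hle))
    have a1 := hn N ((card_le_card_group N).trans_lt hc) (core_sub hO N)
    have a2 := ih (X ⧸ N) ((Nat.le_of_dvd Nat.card_pos (card_quotient_dvd_card N)).trans_lt hc)
      (core_quot _) (fun i => (c (i + 1)).map (QuotientGroup.mk' N))
      (fun i => (h1 _).map _ (QuotientGroup.mk'_surjective N)) (fun i => (h2 _).map _)
      fun i hi => lt_of_le_of_ne (map_mono (h3 _ (by omega)).le) fun h => by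
        refine (h3 (i + 1) (by omega)).not_ge fun x hx => ?_
        obtain ⟨y, hy, e⟩ := (h ▸ mem_map_of_mem _ hx :
          QuotientGroup.mk' N x ∈ (c (i + 1)).map (QuotientGroup.mk' N))
        have e1 : y⁻¹ * x ∈ N := QuotientGroup.eq.1 e
        have e2 : y⁻¹ * x ∈ c (i + 1 + 1) := mul_mem (inv_mem ((h3 _ (by omega)).le hy)) hx
        have e3 : ((c (i + 1 + 1)).map (QuotientGroup.mk' (c 1)) ⊓ pPrimeCore p (X ⧸ c 1)) = ⊥ := by
          obtain ⟨k, hk⟩ := ((h2 (i + 1 + 1)).map (QuotientGroup.mk' (c 1))).exists_card_eq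
          exact (disjoint_of_coprime_natCard (hk ▸ (coprime_pPrimeCore p _).symm.pow_left k)).eq_bot
        have e4 : QuotientGroup.mk' (c 1) (y⁻¹ * x) = 1 :=
          mem_bot.1 (e3 ▸ ⟨mem_map_of_mem _ e2, e1⟩)
        have e5 := hmono i (by omega) ((QuotientGroup.eq_one_iff _).1 e4)
        simpa using mul_mem hy e5
    rw [← gw_mul p N]
    refine le_trans ?_ (Nat.mul_le_mul a1 a2)
    have := S4201.result N
    rw [pow_succ]
    nlinarith [Nat.pow_pos (n := t) three_pos]

theorem base {n : ℕ} (hn : PP p n) {X : Type} [Group X] [Finite X] [Group.IsSolvable X]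
    (hc : Nat.card X ≤ n) (hO : pPrimeCore p X = ⊥) (V : Subgroup X) [V.Normal] (h0 : V ≠ ⊥)
    [IsMulCommutative V] (he : ∀ x ∈ V, x ^ p = 1)
    (hmin : ∀ L : Subgroup X, L.Normal → L ≤ V → L = ⊥ ∨ L = V) (hi : ¬ p ∣ V.index) :
    3 * Nat.card (ConjClasses X) ≤ gw p X := by
  have hP : IsPGroup p V := Solv.isPGroup_of_pow_eq_one he
  obtain ⟨r, hr⟩ := hP.exists_card_eq
  have hcop : (Nat.card V).Coprime V.index :=
    hr ▸ ((hp.out.coprime_iff_not_dvd.2 hi).pow_left r)
  have hr0 : r ≠ 0 := by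
    rintro rfl
    exact h0 (card_eq_one.1 hr)
  have hg : gw p X = (3 * p) ^ r := by
    rw [gw, ← V.card_mul_index, Nat.factorization_mul Nat.card_pos.ne' index_ne_zero_of_finite,
      Finsupp.add_apply, Nat.factorization_eq_zero_of_not_dvd hi, hr, hp.out.factorization_pow]
    simp
  have hC : centralizer (V : Set X) = V := by
    refine le_antisymm ?_ (le_centralizer V)
    set C := centralizer (V : Set X)
    have hVC : V ≤ C := le_centralizer V
    have h1 : (Nat.card (V.subgroupOf C)).Coprime (V.subgroupOf C).index := by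
      rw [Nat.card_congr (subgroupOfEquivOfLe hVC).toEquiv]
      exact hcop.coprime_dvd_right (relIndex_dvd_index_of_normal V C)
    obtain ⟨R, hR⟩ := exists_right_complement'_of_coprime h1
    haveI : R.Normal := ⟨fun x hx g => by
      obtain ⟨⟨a, b⟩, rfl⟩ := (hR.existsUnique g).exists
      have h2 : (a : C) * (b * x * (b : C)⁻¹) = b * x * (b : C)⁻¹ * a :=
        Subtype.ext ((b * x * (b : C)⁻¹ : C).2 _ a.2)
      have h3 : (a : C) * b * x * ((a : C) * b)⁻¹ = b * x * (b : C)⁻¹ := by
        rw [mul_inv_rev, ← mul_assoc, mul_assoc (a : C), mul_assoc (a : C), h2,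
          mul_inv_cancel_right]
      exact h3 ▸ mul_mem (mul_mem b.2 hx) (inv_mem b.2)⟩
    have h4 : R = ⊥ := le_bot_iff.1 (core_sub hO C ▸ le_pPrimeCore inferInstance (by
      rw [← hR.symm.index_eq_card]
      exact (hp.out.coprime_iff_not_dvd.2 fun h =>
        hi (h.trans (relIndex_dvd_index_of_normal V C))).symm))
    have h5 := hR.sup_eq_top
    rw [h4, sup_bot_eq, subgroupOf_eq_top] at h5
    exact h5
  letI := conjAct V
  letI := rangeAct X (Additive V)
  let f := MulAction.toPermHom X (Additive V)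
  let π := f.rangeRestrict
  haveI : Finite f.range := Finite.of_surjective _ f.rangeRestrict_surjective
  haveI := Group.isSolvable_of_surjective f.rangeRestrict_surjective
  haveI := (nontrivial_iff_ne_bot V).2 h0
  have hker : ∀ x, π x = 1 → x ∈ V := fun x hx =>
    hC ▸ (mem_aK_conj V).1 (congrArg Subtype.val hx)
  have hker' : ∀ x ∈ V, π x = 1 := fun x hx =>
    Subtype.ext ((mem_aK_conj V).2 (hC.symm ▸ hx))
  have hact : ∀ (x : X) (v : Additive V), ((π x • v).toMul : X) = x * v.toMul * x⁻¹ :=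
    fun _ _ => rfl
  let T : AddSubgroup (Additive V) → Subgroup X := fun W =>
    (AddSubgroup.toSubgroup' W).map V.subtype
  have hT : ∀ W (v : Additive V), (v.toMul : X) ∈ T W ↔ v ∈ W := fun W v =>
    mem_map_iff_mem V.subtype_injective
  have hTV : ∀ W, T W ≤ V := fun W => map_subtype_le _
  have hI : Irr f.range (Additive V) := fun W hW => by
    have h1 : (T W).Normal := ⟨fun x hx g =>
      (hT W (π g • Additive.ofMul ⟨x, hTV W hx⟩)).2 (hW _ _ ((hT W (Additive.ofMul ⟨x, hTV W hx⟩)).1 hx))⟩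
    refine (hmin _ h1 (hTV W)).imp (fun h => ?_) fun h => ?_
    · refine eq_bot_iff.2 fun v hv => ?_
      have := (hT W v).2 hv
      rw [h, mem_bot] at this
      exact Additive.toMul.injective (Subtype.ext this)
    · exact eq_top_iff.2 fun v _ => (hT W v).1 (h.symm ▸ v.toMul.2)
  have hsub : ∀ K : Subgroup f.range, V ≤ K.comap π := fun K x hx => by
    rw [mem_comap, hker' x hx]; exact one_mem _
  rcases dich hp.out hI (r := r) hr with ⟨F, _, h1, h2⟩ | ⟨K, _, t, c, h1, h2, h3, h4, h5⟩
  · have a1 : kq _ ≤ _ := h1 X π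
    set Y := F.comap π
    have hVY : V ≤ Y := hsub F
    have hcY : Nat.card (V.subgroupOf Y) = p ^ r :=
      (Nat.card_congr (subgroupOfEquivOfLe hVY).toEquiv).trans hr
    have hiY : ¬ p ∣ (V.subgroupOf Y).index := fun h =>
      hi (h.trans (relIndex_dvd_index_of_normal V Y))
    obtain ⟨R, hR⟩ := exists_right_complement'_of_coprime (N := V.subgroupOf Y)
      (hcY ▸ (hp.out.coprime_iff_not_dvd.2 hiY).pow_left r)
    obtain ⟨v, hv⟩ := exists_ne (1 : V)
    have a2 := S4958.result p (V.subgroupOf Y) (fun x hx => Subtype.ext (he x hx)) hiY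
      (le_antisymm (fun x hx => by
          rw [mem_subgroupOf, ← hC]
          exact fun y hy => congrArg Subtype.val (hx ⟨y, hVY hy⟩ hy))
        fun x hx y hy => Subtype.ext (hC.ge hx y hy)) R hR ⟨v, hVY v.2⟩ v.2 fun a ha b hb => by
      have e1 : ⁅a, b⁆ ∈ R ⊓ centralizer {(⟨v, hVY v.2⟩ : Y)} :=
        mul_mem (mul_mem (mul_mem ha hb) (inv_mem ha)) (inv_mem hb)
      have e2 := h2 _ a.2 _ b.2 (Additive.ofMul v) hv (by
        rw [← map_commutatorElement]
        apply Additive.toMul.injective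
        apply Subtype.ext
        rw [hact, mul_inv_eq_iff_eq_mul]
        exact congrArg Subtype.val (mem_centralizer_singleton_iff.1 e1.2))
      rw [← map_commutatorElement] at e2
      rw [← commutatorElement_eq_one_iff_mul_comm]
      exact hR.disjoint.le_bot ⟨hker _ e2, e1.1⟩
    have a3 := S4201.result Y
    rw [hg, mul_pow]
    rw [hcY] at a2
    obtain ⟨r, rfl⟩ := Nat.exists_eq_succ_of_ne_zero hr0
    have a4 := a3.trans (Nat.mul_le_mul a2 a1)
    rw [Nat.succ_sub_one] at a4
    rw [pow_succ 3]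
    nlinarith
  · have a1 : kq _ ≤ _ := h3 X π
    set Y := K.comap π
    have hVY : V ≤ Y := hsub K
    have hY : Y ≠ ⊤ := fun h => h1 (by
      rw [← map_comap_eq_self_of_surjective f.rangeRestrict_surjective K]
      change Y.map π = ⊤
      rw [h, map_top_of_surjective _ f.rangeRestrict_surjective])
    have hlt : Nat.card Y < Nat.card X := by
      by_contra h
      exact hY (Subgroup.eq_top_of_le_card Y (not_lt.1 h))
    have a2 := chain hn t Y (hlt.trans_le hc) (core_sub hO Y) (fun i => (T (c i)).subgroupOf Y)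
      (fun i => ⟨fun x hx g => (hT _ (π g • Additive.ofMul ⟨x, hTV _ hx⟩)).2
        (h4 i _ g.2 _ ((hT _ (Additive.ofMul ⟨x, hTV _ hx⟩)).1 hx))⟩)
      (fun i => (hP.to_le (hTV _)).comap_subtype) fun i hi => by
        obtain ⟨h6, v, h7, h8⟩ := SetLike.lt_iff_le_and_exists.1 (h5 i hi)
        refine SetLike.lt_iff_le_and_exists.2 ⟨fun x hx => ?_, ⟨v.toMul, hVY v.toMul.2⟩,
          (hT _ v).2 h7, fun h => h8 ((hT _ v).1 h)⟩
        exact (hT _ (Additive.ofMul ⟨x, hTV _ hx⟩)).2 (h6 ((hT _ _).1 hx))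
    have a3 := S4201.result Y
    have a4 : gw p Y ≤ gw p X := by
      rw [← gw_mul p Y]
      exact Nat.le_mul_of_pos_right _ (Nat.pow_pos (Nat.mul_pos three_pos hp.out.pos))
    obtain ⟨t, rfl⟩ := Nat.exists_eq_succ_of_ne_zero h2
    have a5 := a3.trans (Nat.mul_le_mul_left _ a1)
    rw [Nat.succ_sub_one] at a5
    rw [pow_succ 3] at a2
    nlinarith

theorem pp (n : ℕ) : PP p n := by
  induction n with
  | zero => intro X _ _ _ _ hc; exact absurd hc (Nat.not_lt_zero _)
  | succ n ih =>
  intro X _ _ _ _ hc hO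
  obtain ⟨q, V, hq, _, h0, _, he, hP, hmin⟩ := Solv.exists_normal_elementary X
  obtain rfl : q = p := by
    by_contra h
    haveI := Fact.mk hq
    obtain ⟨k, hk⟩ := hP.exists_card_eq
    exact h0 (le_bot_iff.1 (hO ▸ le_pPrimeCore inferInstance
      (hk ▸ ((Nat.coprime_primes hq hp.out).2 h).pow_left k)))
  set N := (pPrimeCore q (X ⧸ V)).comap (QuotientGroup.mk' V) with hN
  by_cases hT : N = ⊤
  · refine base ih (by omega) hO V h0 he hmin ?_
    have h1 : pPrimeCore q (X ⧸ V) = ⊤ := by
      rw [← map_comap_eq_self_of_surjective (QuotientGroup.mk'_surjective V) (pPrimeCore q _),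
        ← hN, hT, map_top_of_surjective _ (QuotientGroup.mk'_surjective V)]
    have h2 := coprime_pPrimeCore q (X ⧸ V)
    rw [h1, card_top] at h2
    exact hp.out.coprime_iff_not_dvd.1 h2.symm
  have hle : V ≤ N := fun x hx => by
    rw [hN, mem_comap, QuotientGroup.mk'_apply, (QuotientGroup.eq_one_iff x).2 hx]
    exact one_mem _
  have hN0 : N ≠ ⊥ := fun h => h0 (le_bot_iff.1 (h ▸ hle))
  haveI : Nontrivial N := (nontrivial_iff_ne_bot N).2 hN0
  have hlt : Nat.card N < Nat.card X := by
    by_contra h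
    exact hT (Subgroup.eq_top_of_le_card N (not_lt.1 h))
  have hlt' : Nat.card (X ⧸ N) < Nat.card X := by
    rw [card_eq_card_quotient_mul_card_subgroup N]
    exact lt_mul_of_one_lt_right Nat.card_pos (N.one_lt_card_iff_ne_bot.2 hN0)
  have a1 := ih N (by omega) (core_sub hO N)
  have a2 := chain ih 0 (X ⧸ N) (by omega) (core_quot V) (fun _ => ⊥) (fun _ => inferInstance)
    (fun _ => IsPGroup.of_bot) fun i hi => absurd hi (Nat.not_lt_zero _)
  rw [← gw_mul q N]
  refine le_trans ?_ (Nat.mul_le_mul a1 a2)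
  have := S4201.result N
  nlinarith

end Cfsg.Agent.KB
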