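import Cfsg.Agent.CH.Kc5

/-! A dichotomy for solvable irreducible groups on finite modules, with class number bounds. -/

set_option autoImplicit false
set_option linter.style.haveILetI false

namespace Cfsg.Agent.KB

open Subgroup Cfsg.Agent.CH Cfsg.Agent.CH.Kc Cfsg.Agent.CH.Reg
open scoped IsMulCommutative commutatorElement

theorem le_three_pow (f : ℕ) : f ≤ 3 ^ (f - 1) := by
  rcases f with _ | f
  · simp
  · exact Nat.succ_le_of_lt (Nat.lt_pow_self (by norm_num))

theorem dich {p : ℕ} (hp : p.Prime) {G V : Type} [Group G] [Finite G] [Group.IsSolvable G]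
    [AddCommGroup V] [Finite V] [Nontrivial V] [DistribMulAction G V] [FaithfulSMul G V]
    (hI : Irr G V) {r : ℕ} (hV : Nat.card V = p ^ r) :
    (∃ (F : Subgroup G) (_ : F.Normal), Bd F (3 ^ (r - 1)) ∧
      ∀ x ∈ F, ∀ y ∈ F, ∀ v : V, v ≠ 0 → ⁅x, y⁆ • v = v → ⁅x, y⁆ = 1) ∨
    ∃ (K : Subgroup G) (_ : K.Normal) (t : ℕ) (c : ℕ → AddSubgroup V), K ≠ ⊤ ∧ t ≠ 0 ∧
      Bd K (3 ^ (t - 1)) ∧ (∀ i, ∀ g ∈ K, ∀ v ∈ c i, g • v ∈ c i) ∧ ∀ i < t, c i < c (i + 1) := by
  classical
  obtain ⟨U, F, -, hmax, hB, hS⟩ := exists_St2 (G := G)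
  haveI := hS.un
  haveI := hS.fn
  haveI : IsMulCommutative U := ⟨⟨fun a b => Subtype.ext (hS.cm (hS.le b.2) a.2).eq⟩⟩
  by_cases hblock : ∃ κ ∈ KR V U, κ ≠ 0 ∧ ¬ Function.Injective κ
  · obtain ⟨κ, h1, h2, h3⟩ := hblock
    obtain ⟨H, e, hH, he0, hee, heH, heG⟩ := exists_block hI h1 h2 h3
    right
    obtain ⟨x0, hx0⟩ : ∃ x, e x ≠ 0 := by
      by_contra h
      push Not at h
      exact he0 (AddMonoidHom.ext h)
    let σ : Fin H.index ≃ G ⧸ H := (Finite.equivFin (G ⧸ H)).symm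
    let c : ℕ → AddSubgroup V := fun j =>
      { carrier := {v | ∀ i : Fin H.index, j ≤ i → e ((σ i).out⁻¹ • v) = 0}
        add_mem' := fun {a b} ha hb i hi => by rw [smul_add, map_add, ha i hi, hb i hi, add_zero]
        zero_mem' := fun i _ => by rw [smul_zero, map_zero]
        neg_mem' := fun {a} ha i hi => by rw [smul_neg, map_neg, ha i hi, neg_zero] }
    refine ⟨H.normalCore, inferInstance, H.index, c,
      fun h => hH.1 (top_le_iff.1 (h ▸ H.normalCore_le)), index_ne_zero_of_finite,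
      perm_trans _ G H rfl, fun j g hg v hv i hi => ?_, fun j hj => ?_⟩
    · have h4 : (σ i).out⁻¹ • g • v = ((σ i).out⁻¹ * g * (σ i).out⁻¹⁻¹) • (σ i).out⁻¹ • v := by
        simp only [← mul_smul]
        congr 1
        group
      rw [h4, heH _ (hg _), hv i hi, smul_zero]
    · refine lt_of_le_of_ne (fun v hv i hi => hv i (by omega)) fun h => hx0 ?_
      have h4 : (σ ⟨j, hj⟩).out • e x0 ∈ c (j + 1) := fun i hi => by
        rw [← mul_smul]
        refine heG _ (fun h5 => ?_) _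
        have h6 := QuotientGroup.eq.2 h5
        rw [QuotientGroup.out_eq', QuotientGroup.out_eq'] at h6
        have := congrArg Fin.val (σ.injective h6)
        simp only at this
        omega
      have h5 := (h ▸ h4 : (σ ⟨j, hj⟩).out • e x0 ∈ c j) ⟨j, hj⟩ le_rfl
      rwa [inv_smul_smul, hee] at h5
  left
  obtain ⟨K, _, _, _, ι, hι⟩ := exists_Sc (V := V) (N := U) fun κ h3 h4 =>
    by_contra fun h5 => hblock ⟨κ, h3, h4, h5⟩
  haveI := Fintype.ofFinite K
  obtain ⟨q, _, ⟨f, hf⟩, hq, hK⟩ := FiniteField.card' K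
  rw [← Nat.card_eq_fintype_card, PNat.mk_coe] at hK
  haveI : Module.Finite K V := Module.Finite.of_finite
  have hV' := Module.natCard_eq_pow_finrank (K := K) (V := V)
  have hd : 0 < Module.finrank K V := Module.finrank_pos
  have hs := index_le hS hι hq hK
  rw [hK, hV, ← pow_mul] at hV'
  obtain rfl : q = p := (Nat.prime_dvd_prime_iff_eq hq hp).1
    (hq.dvd_of_dvd_pow (hV' ▸ dvd_pow_self q (Nat.mul_pos hf hd).ne'))
  have hr : r = f * Module.finrank K V := Nat.pow_right_injective hp.two_le hV'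
  refine ⟨F, inferInstance, ?_, fun x hx y hy v hv h => ?_⟩
  · have h1 : (centralizer (U : Set G)).index ≤ 3 ^ (f - 1) := hs.trans (le_three_pow f)
    by_cases hFU : F ≤ U
    · refine (bd_index _).mono (((centralizer_le hFU).trans hS.self).trans hS.le)
        (h1.trans (Nat.pow_le_pow_right three_pos ?_))
      have : f ≤ r := hr ▸ Nat.le_mul_of_pos_right f hd
      omega
    obtain ⟨e, b, -, he2, hed, -, h, hb, hb'⟩ := prim hS hι (ll _) hmax hB le_rfl hFU
    refine ((bd_index _).rel h).mono le_rfl ((Nat.mul_le_mul h1 (num3 he2 hb hb')).trans ?_)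
    rw [← pow_add]
    refine Nat.pow_le_pow_right three_pos ?_
    obtain ⟨f, rfl⟩ := Nat.exists_eq_succ_of_ne_zero hf.ne'
    obtain ⟨d, hd'⟩ := Nat.exists_eq_succ_of_ne_zero hd.ne'
    rw [hd'] at hr hed
    have : r = f * d + f + d + 1 := by rw [hr]; simp only [Nat.succ_eq_add_one]; ring
    omega
  · have hu := hS.comm x hx y hy
    refine hι.inj hu U.one_mem ?_
    rw [hι.one]
    rw [hι.act _ hu] at h
    exact smul_left_injective K hv (h.trans (one_smul K v).symm)

end Cfsg.Agent.KB
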