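import Cfsg.Agent.Block.PSolv
import Cfsg.Agent.CharDeep.Gallagher

/-! The number of irreducible characters over an invariant character is at most `k(G/N)`. -/

set_option autoImplicit false
set_option linter.style.haveILetI false

namespace Cfsg.Agent.KB

open Cfsg Cfsg.Agent.Block Cfsg.Agent.Char Cfsg.Agent.CharDeep Subgroup

variable {G : Type*} [Group G] [Finite G] (N : Subgroup G) [hN : N.Normal] [Fintype N]

theorem coset_line {θ : N → ℂ} (hθ : IsIrrCharacter N θ) (hinv : ∀ g, conjN N g θ = θ) (g : G) :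
    ∃ η : N → ℂ, ∀ χ : G → ℂ, IsIrrCharacter G χ → classInner (fun n : N => χ n) θ ≠ 0 →
      ∃ c : ℂ, ∀ n : N, χ (n * g) = c * η n := by
  classical
  set H := N ⊔ zpowers g with hH
  have hNH : N ≤ H := le_sup_left
  have hg : g ∈ H := mem_sup_right (mem_zpowers g)
  haveI := Fintype.ofFinite H
  haveI := Fintype.ofFinite (N.subgroupOf H)
  have hcyc : IsCyclic (H ⧸ N.subgroupOf H) := by
    refine ⟨⟨((⟨g, hg⟩ : H) : H ⧸ N.subgroupOf H), fun x => ?_⟩⟩
    induction x using QuotientGroup.induction_on with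
    | H x =>
      obtain ⟨x, hx⟩ := x
      have hx' : x ∈ ((zpowers g ⊔ N : Subgroup G) : Set G) := by rwa [sup_comm]
      rw [mul_normal] at hx'
      obtain ⟨_, ⟨k, rfl⟩, n, hn, rfl⟩ := hx'
      refine ⟨k, ?_⟩
      change (((⟨g, hg⟩ : H) : H ⧸ N.subgroupOf H)) ^ k = _
      rw [← QuotientGroup.mk_zpow, QuotientGroup.eq, mem_subgroupOf]
      simpa using hn
  have hθ' := isIrr_subOf hNH hθ
  obtain ⟨η, hη, he⟩ := exists_extension_of_cyclic (N.subgroupOf H) hcyc hθ' (conjN_subOf hinv)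
  have he' : (fun n : N.subgroupOf H => η n) = subOf N H θ := funext he
  refine ⟨fun n => η ⟨n * g, H.mul_mem (hNH n.2) hg⟩, fun χ hχ h0 => ?_⟩
  have hχH : IsCharacter H (fun h : H => χ h) := hχ.isCharacter.comp H.subtype
  obtain ⟨e, he0, -, hres⟩ := exists_res_eq_smul_of_invariant N hχ hθ hinv h0
  have key : ∀ ψ : IrrCharacter H, ∃ c : ℂ, ∀ n : N,
      classInner (fun h : H => χ h) ψ * ψ.1 ⟨n * g, H.mul_mem (hNH n.2) hg⟩ =
        c * η ⟨n * g, H.mul_mem (hNH n.2) hg⟩ := fun ψ => by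
    by_cases h1 : classInner (fun h : H => χ h) ψ = 0
    · exact ⟨0, fun n => by rw [h1, zero_mul, zero_mul]⟩
    obtain ⟨φ, hφ, h2⟩ := exists_irr_under (N.subgroupOf H) ψ.2
    have h3 := classInner_comp_ne_zero_of_constituent (N.subgroupOf H).subtype hχH ψ.2 h1
      hφ.isCharacter h2
    have h4 : (fun k : N.subgroupOf H => χ ((N.subgroupOf H).subtype k : H)) =
        (e : ℂ) • subOf N H θ := funext fun k => congrFun hres ⟨k.1.1, k.2⟩
    have h5 : subOf N H θ = φ := by
      by_contra h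
      apply h3
      rw [h4, classInner_smul_left, hθ'.classInner_eq_zero_of_ne hφ h, mul_zero]
    obtain ⟨β, -, h6⟩ := gallagher_surj (N.subgroupOf H) hη.isCharacter (he' ▸ hθ') ψ.2
      (by rw [he', h5]; exact h2)
    refine ⟨classInner (fun h : H => χ h) ψ * β ((⟨g, hg⟩ : H) : H ⧸ N.subgroupOf H), fun n => ?_⟩
    have h7 : ((⟨n * g, H.mul_mem (hNH n.2) hg⟩ : H) : H ⧸ N.subgroupOf H) = (⟨g, hg⟩ : H) := by
      rw [QuotientGroup.eq, mem_subgroupOf]
      simpa [mul_assoc] using hN.conj_mem' _ (N.inv_mem n.2) g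
    conv_lhs => rw [h6]
    simp only [h7, ← h6]
    ring
  choose c hc using key
  refine ⟨∑ ψ, c ψ, fun n => ?_⟩
  have := hχH.isClassFunction.apply_eq_sum_irr ⟨n * g, H.mul_mem (hNH n.2) hg⟩
  rw [Finset.sum_mul]
  exact this.trans (Finset.sum_congr rfl fun ψ _ => hc ψ n)

theorem card_over_le {θ : N → ℂ} (hθ : IsIrrCharacter N θ) (hinv : ∀ g, conjN N g θ = θ) :
    Nat.card {χ : IrrCharacter G // classInner (fun n : N => χ.1 n) θ ≠ 0} ≤
      Nat.card (ConjClasses (G ⧸ N)) := by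
  classical
  haveI : Finite (ConjClasses (G ⧸ N)) := Finite.of_surjective _ ConjClasses.mk_surjective
  haveI := Fintype.ofFinite (ConjClasses (G ⧸ N))
  choose η hη using coset_line N hθ hinv
  have hr : ∀ C : ConjClasses (G ⧸ N), ∃ g : G, ConjClasses.mk (g : G ⧸ N) = C := fun C => by
    obtain ⟨y, rfl⟩ := ConjClasses.mk_surjective C
    obtain ⟨g, rfl⟩ := QuotientGroup.mk_surjective y
    exact ⟨g, rfl⟩
  choose r hr using hr
  choose c hc using fun (χ : {χ : IrrCharacter G // classInner (fun n : N => χ.1 n) θ ≠ 0})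
    (C : ConjClasses (G ⧸ N)) => hη (r C) χ.1.1 χ.1.2 χ.2
  have hL : LinearIndependent ℂ c := by
    have h0 := (linearIndependent_irr (G := G)).comp
      (fun χ : {χ : IrrCharacter G // classInner (fun n : N => χ.1 n) θ ≠ 0} => χ.1)
      Subtype.val_injective
    rw [Fintype.linearIndependent_iff] at h0 ⊢
    refine fun a ha => h0 a (funext fun x => ?_)
    obtain ⟨y, hy⟩ := isConj_iff.1 (ConjClasses.mk_eq_mk_iff_isConj.1 (hr (ConjClasses.mk x)).symm)
    obtain ⟨y, rfl⟩ := QuotientGroup.mk_surjective y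
    set s := r (ConjClasses.mk x)
    have h1 : y * x * y⁻¹ * s⁻¹ ∈ N := by
      have h2 := QuotientGroup.eq.1 (show ((y * x * y⁻¹ : G) : G ⧸ N) = s from hy).symm
      simpa [mul_assoc] using hN.conj_mem _ h2 s
    have h3 := congrFun ha (ConjClasses.mk x)
    simp only [Finset.sum_apply, Pi.smul_apply, smul_eq_mul, Pi.zero_apply,
      Function.comp_apply] at h3 ⊢
    have h4 : ∀ χ : {χ : IrrCharacter G // classInner (fun n : N => χ.1 n) θ ≠ 0},
        χ.1.1 x = c χ (ConjClasses.mk x) * η s ⟨_, h1⟩ := fun χ => by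
      rw [← hc χ _ ⟨_, h1⟩, ← χ.1.2.isClassFunction x y]
      simp [s]
    simp only [h4, ← mul_assoc, ← Finset.sum_mul, h3, zero_mul]
  have := hL.fintype_card_le_finrank
  rwa [Module.finrank_fintype_fun_eq_card, ← Nat.card_eq_fintype_card,
    ← Nat.card_eq_fintype_card] at this

end Cfsg.Agent.KB
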